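import Cfsg.Agent.Lib.Fusion.Cent
import Cfsg.Agent.Lib.Fusion.Prod

/-! Central products of fusion systems. -/

set_option autoImplicit false

namespace Cfsg.Lib.Fusion

open Subgroup Cfsg.Lib.Transfer
open Cfsg.FusionSystem hiding inv_mem
open scoped commutatorElement

variable {Ω : Type*} [Group Ω] {S T U T₁ T₂ : Subgroup Ω} {F : FusionSystem S}
  {E₁ : FusionSystem T₁} {E₂ : FusionSystem T₂} {D : FusionSystem T} {C : FusionSystem U}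
  {P Q R P₁ P₂ : Subgroup Ω} {f g f₁ f₂ : Ω → Ω} {p : ℕ}

theorem comm_of_le_centralizer (h : T₁ ≤ centralizer (T₂ : Set Ω)) {a b : Ω} (ha : a ∈ T₁)
    (hb : b ∈ T₂) : a * b = b * a := (h ha b hb).symm

theorem exists_mul_of_comm (h : T₁ ≤ centralizer (T₂ : Set Ω)) (h₁ : P₁ ≤ T₁) (h₂ : P₂ ≤ T₂) {x : Ω}
    (hx : x ∈ P₁ ⊔ P₂) : ∃ a ∈ P₁, ∃ b ∈ P₂, x = a * b :=
  exists_mul_of_mem_sup (fun _ hy => centralizer_le_normalizer _ fun _ ha =>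
    comm_of_le_centralizer h (h₁ ha) (h₂ hy)) hx

theorem homOn_mul (h : T₁ ≤ centralizer (T₂ : Set Ω)) :
    HomOn (T₁.prod T₂) (fun x : Ω × Ω => x.1 * x.2) := fun x hx y hy => by
  beta_reduce
  rw [Prod.fst_mul, Prod.snd_mul, mul_assoc, ← mul_assoc y.1, comm_of_le_centralizer h hy.1 hx.2]
  group

/-- The maps of a central product. -/
def CMor (E₁ : FusionSystem T₁) (E₂ : FusionSystem T₂) (P : Subgroup Ω) (f : Ω → Ω) : Prop :=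
  ∃ P₁ P₂ f₁ f₂, Mor E₁ P₁ f₁ ∧ Mor E₂ P₂ f₂ ∧ P ≤ P₁ ⊔ P₂ ∧
    ∀ a ∈ P₁, ∀ b ∈ P₂, a * b ∈ P → f (a * b) = f₁ a * f₂ b

/-- `D` is the central product of `E₁` and `E₂`. -/
structure CPr (E₁ : FusionSystem T₁) (E₂ : FusionSystem T₂) (D : FusionSystem T) : Prop where
  comm : T₁ ≤ centralizer (T₂ : Set Ω)
  eq : T = T₁ ⊔ T₂
  z₁ : E₁.IsCentral (T₁ ⊓ T₂)
  z₂ : E₂.IsCentral (T₁ ⊓ T₂)
  mor : ∀ P f, Mor D P f ↔ CMor E₁ E₂ P f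

theorem Prd.cMor_iff {D₀ : FusionSystem (T₁.prod T₂)} (h : Prd E₁ E₂ D₀)
    (hc : T₁ ≤ centralizer (T₂ : Set Ω)) (z₁ : E₁.IsCentral (T₁ ⊓ T₂))
    (z₂ : E₂.IsCentral (T₁ ⊓ T₂)) : CMor E₁ E₂ P f ↔ P ≤ T₁ ⊔ T₂ ∧ ∃ f₀,
      Mor D₀ ((homOn_mul hc).pre P) f₀ ∧
        ∀ x ∈ (homOn_mul hc).pre P, f (x.1 * x.2) = (f₀ x).1 * (f₀ x).2 := by
  refine ⟨fun ⟨P₁, P₂, f₁, f₂, h₁, h₂, hP, e⟩ => ⟨hP.trans (sup_le_sup h₁.le h₂.le), ?_⟩,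
    fun ⟨hP, f₀, h0, e⟩ => ?_⟩
  · obtain ⟨g₁, k₁, a₁, b₁⟩ := h₁.ext_central z₁
    obtain ⟨g₂, k₂, a₂, b₂⟩ := h₂.ext_central z₂
    have key : ∀ x ∈ (homOn_mul hc).pre P, ∃ a ∈ P₁, ∃ b ∈ P₂, ∃ z ∈ T₁ ⊓ T₂,
        x.1 = a * z ∧ x.2 = z⁻¹ * b := fun x hx => by
      obtain ⟨a, ha, b, hb, e⟩ := exists_mul_of_comm hc h₁.le h₂.le (hP hx.2)
      refine ⟨a, ha, b, hb, a⁻¹ * x.1, mem_inf.2 ⟨mul_mem (inv_mem (h₁.le ha)) hx.1.1, ?_⟩,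
        by group, ?_⟩
      · rw [show a⁻¹ * x.1 = b * x.2⁻¹ by rw [inv_mul_eq_iff_eq_mul, ← mul_assoc, ← e]; group]
        exact mul_mem (h₂.le hb) (inv_mem hx.1.2)
      · rw [mul_inv_rev, inv_inv, mul_assoc, ← e]; group
    refine ⟨_, h.mor_of k₁ k₂ fun x hx => ?_, fun x hx => ?_⟩
    all_goals obtain ⟨a, ha, b, hb, z, hz, e1, e2⟩ := key x hx
    · exact ⟨e1 ▸ mul_mem (mem_sup_left ha) (mem_sup_right hz),
        e2 ▸ mul_mem (mem_sup_right (inv_mem hz)) (mem_sup_left hb)⟩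
    · have e3 : x.1 * x.2 = a * b := by rw [e1, e2]; group
      have := hx.2
      beta_reduce at this ⊢
      rw [e3] at this
      rw [e3, e a ha b hb this, e1, e2, k₁.homOn.map_mul (mem_sup_left ha) (mem_sup_right hz),
        k₂.homOn.map_mul (mem_sup_right (inv_mem hz)) (mem_sup_left hb), a₁ a ha, b₁ z hz,
        a₂ b hb, b₂ _ (inv_mem hz)]
      group
  · obtain ⟨f₁, f₂, h₁, h₂, e'⟩ := h.exists_ext h0
    refine ⟨_, _, f₁, f₂, h₁, h₂, fun x hx => ?_, fun a ha b hb hab => ?_⟩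
    · obtain ⟨a, ha, b, hb, rfl⟩ := exists_mul_of_comm hc le_rfl le_rfl (hP hx)
      have : (a, b) ∈ (homOn_mul hc).pre P := ⟨⟨ha, hb⟩, hx⟩
      exact mul_mem (mem_sup_left (mem_pr1 this)) (mem_sup_right (mem_pr2 this))
    · have : (a, b) ∈ (homOn_mul hc).pre P := ⟨⟨h₁.le ha, h₂.le hb⟩, hab⟩
      rw [e _ this, e' _ this]

theorem im_mul (hc : T₁ ≤ centralizer (T₂ : Set Ω)) :
    im (fun x : Ω × Ω => x.1 * x.2) (T₁.prod T₂) = T₁ ⊔ T₂ :=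
  le_antisymm (im_le_iff.2 fun _ hx => mul_mem (mem_sup_left hx.1) (mem_sup_right hx.2))
    fun x hx => by
      obtain ⟨a, ha, b, hb, rfl⟩ := exists_mul_of_comm hc le_rfl le_rfl hx
      exact mem_im_of_mem (x := (a, b)) _ ⟨ha, hb⟩

theorem mem_ker_mul (hc : T₁ ≤ centralizer (T₂ : Set Ω)) {x : Ω × Ω}
    (hx : x ∈ (homOn_mul hc).pre ⊥) : x.1 ∈ T₁ ⊓ T₂ ∧ x.2 ∈ T₁ ⊓ T₂ := by
  have e : x.1 = x.2⁻¹ := eq_inv_of_mul_eq_one_left (mem_bot.1 hx.2)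
  have h := mem_prod.1 hx.1
  exact ⟨mem_inf.2 ⟨h.1, e ▸ inv_mem h.2⟩, mem_inf.2 ⟨inv_mem_iff.1 (e ▸ h.1), h.2⟩⟩

theorem Prd.central_ker {D₀ : FusionSystem (T₁.prod T₂)} (h : Prd E₁ E₂ D₀)
    (hc : T₁ ≤ centralizer (T₂ : Set Ω)) (z₁ : E₁.IsCentral (T₁ ⊓ T₂))
    (z₂ : E₂.IsCentral (T₁ ⊓ T₂)) : D₀.IsCentral ((homOn_mul hc).pre ⊥) := by
  refine isCentral_iff.2 ⟨HomOn.pre_le _ _, fun P f hf => ?_⟩
  obtain ⟨f₁, f₂, h₁, h₂, e⟩ := h.exists_ext hf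
  obtain ⟨g₁, k₁, a₁, b₁⟩ := h₁.ext_central z₁
  obtain ⟨g₂, k₂, a₂, b₂⟩ := h₂.ext_central z₂
  exact ⟨_, h.mor_of k₁ k₂ (sup_le
    (fun x hx => ⟨mem_sup_left (mem_pr1 hx), mem_sup_left (mem_pr2 hx)⟩) fun x hx =>
      ⟨mem_sup_right (mem_ker_mul hc hx).1, mem_sup_right (mem_ker_mul hc hx).2⟩),
    fun x hx => by rw [e x hx, a₁ _ (mem_pr1 hx), a₂ _ (mem_pr2 hx)],
    fun x hx => by rw [b₁ _ (mem_ker_mul hc hx).1, b₂ _ (mem_ker_mul hc hx).2]⟩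

theorem Prd.fac_iff {D₀ : FusionSystem (T₁.prod T₂)} (h : Prd E₁ E₂ D₀)
    (hc : T₁ ≤ centralizer (T₂ : Set Ω)) (z₁ : E₁.IsCentral (T₁ ⊓ T₂))
    (z₂ : E₂.IsCentral (T₁ ⊓ T₂)) :
    Fac D₀ ((homOn_mul hc).pre ⊥) (fun x => x.1 * x.2) D ↔ CPr E₁ E₂ D := by
  refine ⟨fun hf => ?_, fun hD => ⟨HomOn.pre_le _ _, homOn_mul hc,
    fun x hx => ⟨fun e => ⟨hx, mem_bot.2 e⟩, fun e => mem_bot.1 e.2⟩, (im_mul hc).trans hD.eq.symm,
    fun P f => ?_⟩⟩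
  · have e := hf.im_eq.symm.trans (im_mul hc)
    exact ⟨hc, e, z₁, z₂, fun P f => by rw [hf.mor, h.cMor_iff hc z₁ z₂, ← e]⟩
  · rw [hD.mor, h.cMor_iff hc z₁ z₂, ← hD.eq]

theorem exists_cPr [Finite T₁] [Finite T₂] (hc : T₁ ≤ centralizer (T₂ : Set Ω))
    (z₁ : E₁.IsCentral (T₁ ⊓ T₂)) (z₂ : E₂.IsCentral (T₁ ⊓ T₂)) (e : T = T₁ ⊔ T₂) :
    ∃ D : FusionSystem T, CPr E₁ E₂ D := by
  obtain ⟨D₀, h⟩ := exists_prd E₁ E₂
  obtain ⟨D, hD⟩ := exists_fac (stronglyClosed_of_normal (normal_of_central (h.central_ker hc z₁ z₂)))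
    (homOn_mul hc) (fun x hx => ⟨fun e => ⟨hx, mem_bot.2 e⟩, fun e => mem_bot.1 e.2⟩)
    ((im_mul hc).trans e.symm)
  exact ⟨D, (h.fac_iff hc z₁ z₂).1 hD⟩

theorem isCentralProductOf_iff [Finite T₁] [Finite T₂] :
    IsCentralProductOf E₁ E₂ D ↔ CPr E₁ E₂ D := by
  refine ⟨fun ⟨D₀, h0, Z, θ, hZ, _, _, e₁, e₂, hf⟩ => ?_, fun h => ?_⟩
  · have h := isProductSystem_iff.1 h0
    rw [isFactorSystem_iff] at hf
    have a₁ : ∀ a ∈ T₁, fn θ (a, 1) = a := fun a ha =>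
      (fn_apply θ (x := (a, 1)) ⟨ha, one_mem _⟩).trans (e₁ _ _)
    have a₂ : ∀ b ∈ T₂, fn θ (1, b) = b := fun b hb =>
      (fn_apply θ (x := (1, b)) ⟨one_mem _, hb⟩).trans (e₂ _ _)
    have a₃ : ∀ x ∈ T₁.prod T₂, x.1 * x.2 = fn θ x := fun x hx => by
      rw [← a₁ _ hx.1, ← a₂ _ hx.2, ← hf.hom.map_mul (x := (x.1, 1)) (y := (1, x.2))
        ⟨hx.1, one_mem _⟩ ⟨one_mem _, hx.2⟩]
      simp
    have hc : T₁ ≤ centralizer (T₂ : Set Ω) := fun a ha b hb => by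
      have := hf.hom.map_mul (x := (1, b)) (y := (a, 1)) ⟨one_mem _, hb⟩ ⟨ha, one_mem _⟩
      rw [a₁ a ha, a₂ b hb, ← a₃ _ (mul_mem (show ((1, b) : Ω × Ω) ∈ T₁.prod T₂ from
        ⟨one_mem _, hb⟩) (show ((a, 1) : Ω × Ω) ∈ T₁.prod T₂ from ⟨ha, one_mem _⟩))] at this
      simpa using this.symm
    have hf' := hf.congr a₃
    have eZ : Z = (homOn_mul hc).pre ⊥ := hf'.pre_bot.symm
    have hZ' := central_iff_le_center.2 hZ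
    have m : ∀ z ∈ T₁ ⊓ T₂, (z, z⁻¹) ∈ Z := fun z hz =>
      eZ ▸ ⟨mem_prod.2 ⟨hz.1, inv_mem (mem_inf.1 hz).2⟩, mem_bot.2 (mul_inv_cancel z)⟩
    have z₁ : E₁.IsCentral (T₁ ⊓ T₂) := isCentral_iff.2 ⟨inf_le_left, fun P f hP => by
      obtain ⟨g, hg, b₁, b₂⟩ := (h.mor_of hP (mor_id E₂ bot_le) le_rfl).ext_central hZ'
      obtain ⟨g₁, g₂, k₁, -, e⟩ := h.exists_ext hg
      have m' : ∀ x ∈ P, ((x, 1) : Ω × Ω) ∈ P.prod ⊥ := fun x hx => ⟨hx, one_mem _⟩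
      exact ⟨g₁, k₁.mono (sup_le (fun x hx => mem_pr1 (x := (x, 1)) (mem_sup_left (m' x hx)))
        fun z hz => mem_pr1 (x := (z, z⁻¹)) (mem_sup_right (m z hz))),
        fun x hx => congrArg Prod.fst ((e _ (mem_sup_left (m' x hx))).symm.trans (b₁ _ (m' x hx))),
        fun z hz => congrArg Prod.fst ((e _ (mem_sup_right (m z hz))).symm.trans (b₂ _ (m z hz)))⟩⟩
    have z₂ : E₂.IsCentral (T₁ ⊓ T₂) := isCentral_iff.2 ⟨inf_le_right, fun P f hP => by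
      obtain ⟨g, hg, b₁, b₂⟩ := (h.mor_of (mor_id E₁ bot_le) hP le_rfl).ext_central hZ'
      obtain ⟨g₁, g₂, -, k₂, e⟩ := h.exists_ext hg
      have m' : ∀ x ∈ P, ((1, x) : Ω × Ω) ∈ (⊥ : Subgroup Ω).prod P := fun x hx => ⟨one_mem _, hx⟩
      have m'' : ∀ z ∈ T₁ ⊓ T₂, (z⁻¹, z) ∈ Z := fun z hz => by simpa using m _ (inv_mem hz)
      exact ⟨g₂, k₂.mono (sup_le (fun x hx => mem_pr2 (x := (1, x)) (mem_sup_left (m' x hx)))
        fun z hz => mem_pr2 (x := (z⁻¹, z)) (mem_sup_right (m'' z hz))),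
        fun x hx => congrArg Prod.snd ((e _ (mem_sup_left (m' x hx))).symm.trans (b₁ _ (m' x hx))),
        fun z hz => congrArg Prod.snd
          ((e _ (mem_sup_right (m'' z hz))).symm.trans (b₂ _ (m'' z hz)))⟩⟩
    exact (h.fac_iff hc z₁ z₂).1 (eZ ▸ hf')
  · obtain ⟨D₀, h0⟩ := exists_prd E₁ E₂
    refine ⟨D₀, isProductSystem_iff.2 h0, (homOn_mul h.comm).pre ⊥, (homOn_mul h.comm).toHom,
      le_center (h0.central_ker h.comm h.z₁ h.z₂), eq_bot_iff.2 fun x hx => ?_,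
      eq_bot_iff.2 fun x hx => ?_, fun x _ => mul_one x, fun x _ => one_mul x,
      isFactorSystem_iff.2 (((h0.fac_iff h.comm h.z₁ h.z₂).2 h).congr
        fun x hx => by rw [fn_apply _ hx]; rfl)⟩
    · have e1 : x.2 = 1 := mem_bot.1 hx.2.2
      have e2 : x.1 * x.2 = 1 := mem_bot.1 hx.1.2
      exact mem_bot.2 (Prod.ext (by simpa [e1] using e2) e1)
    · have e1 : x.1 = 1 := mem_bot.1 hx.2.1
      have e2 : x.1 * x.2 = 1 := mem_bot.1 hx.1.2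
      exact mem_bot.2 (Prod.ext e1 (by simpa [e1] using e2))

namespace CPr

theorem sat [Finite T₁] [Finite T₂] [Fact p.Prime] (h : CPr E₁ E₂ D) (h₁ : Sat E₁ p)
    (h₂ : Sat E₂ p) : Sat D p := by
  obtain ⟨D₀, h0⟩ := exists_prd E₁ E₂
  exact ((h0.fac_iff h.comm h.z₁ h.z₂).2 h).sat
    (stronglyClosed_of_normal (normal_of_central (h0.central_ker h.comm h.z₁ h.z₂))) (h0.sat h₁ h₂)

theorem comm' (h : CPr E₁ E₂ D) : T₂ ≤ centralizer (T₁ : Set Ω) := le_centralizer_iff.1 h.comm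

theorem le₁ (h : CPr E₁ E₂ D) : T₁ ≤ T := h.eq ▸ le_sup_left

theorem le₂ (h : CPr E₁ E₂ D) : T₂ ≤ T := h.eq ▸ le_sup_right

theorem exists_mul (h : CPr E₁ E₂ D) {x : Ω} (hx : x ∈ T) : ∃ a ∈ T₁, ∃ b ∈ T₂, x = a * b :=
  exists_mul_of_comm h.comm le_rfl le_rfl (h.eq.le hx)

theorem symm (h : CPr E₁ E₂ D) : CPr E₂ E₁ D := by
  have key : ∀ {T₁ T₂ : Subgroup Ω} {E₁ : FusionSystem T₁} {E₂ : FusionSystem T₂},
      T₁ ≤ centralizer (T₂ : Set Ω) → ∀ P f, CMor E₁ E₂ P f → CMor E₂ E₁ P f :=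
    fun hc P f ⟨P₁, P₂, f₁, f₂, h₁, h₂, hP, e⟩ => ⟨P₂, P₁, f₂, f₁, h₂, h₁, sup_comm P₁ P₂ ▸ hP,
      fun b hb a ha hm => by
        have e1 := comm_of_le_centralizer hc (h₁.le ha) (h₂.le hb)
        rw [← e1] at hm ⊢
        rw [e a ha b hb hm, comm_of_le_centralizer hc (h₁.mem ha) (h₂.mem hb)]⟩
  exact ⟨h.comm', h.eq.trans (sup_comm _ _), inf_comm T₁ T₂ ▸ h.z₂, inf_comm T₁ T₂ ▸ h.z₁,
    fun P f => (h.mor P f).trans ⟨key h.comm P f, key h.comm' P f⟩⟩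

theorem mor_iff {D' : FusionSystem U} (h : CPr E₁ E₂ D) (h' : CPr E₁ E₂ D') :
    Mor D P f ↔ Mor D' P f := (h.mor P f).trans (h'.mor P f).symm

theorem exists_mor (h : CPr E₁ E₂ D) (h₁ : Mor E₁ P₁ f₁) (h₂ : Mor E₂ P₂ f₂) :
    ∃ f, Mor D (P₁ ⊔ P₂) f ∧ (∀ a ∈ P₁, ∀ b ∈ P₂, f (a * b) = f₁ a * f₂ b) ∧
      (∀ a ∈ P₁, f a = f₁ a) ∧ ∀ b ∈ P₂, f b = f₂ b := by
  obtain ⟨f, e⟩ := exists_induced (P := P₁.prod P₂) (t := fun x : Ω × Ω => x.1 * x.2)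
    (fun x => f₁ x.1 * f₂ x.2) fun x hx y hy e => by
      have e1 : y.1⁻¹ * x.1 = y.2 * x.2⁻¹ := by
        rw [inv_mul_eq_iff_eq_mul, ← mul_assoc, ← e]; group
      have m1 : y.1⁻¹ * x.1 ∈ P₁ := mul_mem (inv_mem hy.1) hx.1
      have m2 : y.2 * x.2⁻¹ ∈ P₂ := mul_mem hy.2 (inv_mem hx.2)
      have a1 := h₁.eq_of_central h.z₁ m1 ⟨h₁.le m1, e1 ▸ h₂.le m2⟩
      have a2 := h₂.eq_of_central h.z₂ m2 ⟨e1 ▸ h₁.le m1, h₂.le m2⟩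
      rw [h₁.homOn.map_mul (inv_mem hy.1) hx.1, h₁.homOn.map_inv hy.1, e1, ← a2,
        h₂.homOn.map_mul hy.2 (inv_mem hx.2), h₂.homOn.map_inv hx.2, inv_mul_eq_iff_eq_mul] at a1
      rw [a1]; group
  have e' : ∀ a ∈ P₁, ∀ b ∈ P₂, f (a * b) = f₁ a * f₂ b := fun a ha b hb => e (a, b) ⟨ha, hb⟩
  exact ⟨f, (h.mor _ _).2 ⟨P₁, P₂, f₁, f₂, h₁, h₂, le_rfl, fun a ha b hb _ => e' a ha b hb⟩, e',
    fun a ha => by simpa [h₂.homOn.map_one] using e' a ha 1 (one_mem _),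
    fun b hb => by simpa [h₁.homOn.map_one] using e' 1 (one_mem _) b hb⟩

theorem cen₁ (h : CPr E₁ E₂ D) : Cen D E₁ T₂ :=
  ⟨le_inf h.le₂ h.comm', fun hf =>
    let ⟨g, hg, _, e⟩ := h.exists_mor hf (mor_id E₂ le_rfl)
    ⟨g, hg, e⟩⟩

theorem cen₂ (h : CPr E₁ E₂ D) : Cen D E₂ T₁ := h.symm.cen₁

theorem sub₁ (h : CPr E₁ E₂ D) : E₁.IsSubsystemOf D := h.cen₁.sub

theorem sub₂ (h : CPr E₁ E₂ D) : E₂.IsSubsystemOf D := h.cen₂.sub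

theorem mor₁ (h : CPr E₁ E₂ D) (hf : Mor D P f) (hP : P ≤ T₁) : Mor E₁ P f := by
  obtain ⟨P₁, P₂, f₁, f₂, h₁, h₂, hP', e⟩ := (h.mor _ _).1 hf
  obtain ⟨g, hg, a₁, a₂⟩ := h₁.ext_central h.z₁
  have key : ∀ x ∈ P, x ∈ P₁ ⊔ T₁ ⊓ T₂ ∧ f x = g x := fun x hx => by
    obtain ⟨a, ha, b, hb, rfl⟩ := exists_mul_of_comm h.comm h₁.le h₂.le (hP' hx)
    have hb' : b ∈ T₁ ⊓ T₂ := ⟨(mul_mem_cancel_left (h₁.le ha)).1 (hP hx), h₂.le hb⟩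
    exact ⟨mul_mem (mem_sup_left ha) (mem_sup_right hb'), by
      rw [e a ha b hb hx, hg.homOn.map_mul (mem_sup_left ha) (mem_sup_right hb'), a₁ a ha,
        a₂ b hb', h₂.eq_of_central h.z₂ hb hb']⟩
  exact (hg.mono fun x hx => (key x hx).1).congr fun x hx => (key x hx).2

theorem mor₂ (h : CPr E₁ E₂ D) (hf : Mor D P f) (hP : P ≤ T₂) : Mor E₂ P f := h.symm.mor₁ hf hP

theorem mor_of_sup (h : CPr E₁ E₂ D) (hf : HomOn P f) (hP : P ≤ P₁ ⊔ P₂) (h₁ : Mor E₁ P₁ f)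
    (h₂ : Mor E₂ P₂ f) (k₁ : P₁ ≤ P) (k₂ : P₂ ≤ P) : Mor D P f :=
  (h.mor _ _).2 ⟨P₁, P₂, f, f, h₁, h₂, hP, fun _ ha _ hb _ => hf.map_mul (k₁ ha) (k₂ hb)⟩

theorem autGroup₁ (h : CPr E₁ E₂ D) (hP : P ≤ T₁) : D.autGroup P = E₁.autGroup P :=
  le_antisymm (fun _ hα => (h.mor₁ (mor_ext (hP.trans h.le₁) hα) hP).mem_autGroup)
    (autGroup_mono h.sub₁ P)

theorem sc_of_sc (h : CPr E₁ E₂ D) (hR : E₁.StronglyClosed R) : D.StronglyClosed R :=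
  stronglyClosed_iff.2 ⟨hR.1.trans h.le₁, fun P _ hf _ hx hx' =>
    (h.mor₁ (hf.mono (inf_le_left : P ⊓ R ≤ P)) (inf_le_right.trans hR.1)).mem_of_stronglyClosed hR
      ⟨hx, hx'⟩ hx'⟩

theorem sc₁ (h : CPr E₁ E₂ D) : D.StronglyClosed T₁ := h.sc_of_sc (stronglyClosed_top E₁)

theorem sc₂ (h : CPr E₁ E₂ D) : D.StronglyClosed T₂ := h.symm.sc₁

theorem inv_of_inv (h : CPr E₁ E₂ D) (hC : Inv C E₁) : Inv C D where
  sub := subsystem_trans hC.sub h.sub₁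
  sc := h.sc_of_sc hC.sc
  conj hf α hα := hC.conj hf α (h.autGroup₁ hC.le ▸ hα)
  frat hP hf :=
    let ⟨α, hα, H⟩ := hC.frat hP (h.mor₁ hf (hP.trans hC.le))
    ⟨α, autGroup_mono h.sub₁ _ hα, H⟩

theorem extCond (h : CPr E₁ E₂ D) (hU : U ≤ T₁) (hC : ExtCond C E₁) : ExtCond C D :=
  fun α hα => by
  obtain ⟨g, hg, a₁, a₂⟩ := hC α hα
  obtain ⟨k, hk, b₁, b₂, -⟩ := h.exists_mor hg (mor_id E₂ le_rfl)
  have key : ∀ c ∈ centralizerIn T U, ∃ a ∈ centralizerIn T₁ U, ∃ b ∈ T₂, c = a * b :=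
    fun c hc => by
      obtain ⟨a, ha, b, hb, rfl⟩ := h.exists_mul hc.1
      exact ⟨a, mkC ha ((mul_mem_cancel_right (centralizer_le hU (h.comm' hb))).1 hc.2), b, hb, rfl⟩
  refine ⟨k, hk.mono (sup_le (le_sup_of_le_left le_sup_left) fun c hc => ?_),
    fun x hx => by rw [b₂ x (mem_sup_left hx), a₁ x hx], fun c hc => ?_⟩
  all_goals obtain ⟨a, ha, b, hb, rfl⟩ := key c hc
  · exact mul_mem (mem_sup_left (mem_sup_right ha)) (mem_sup_right hb)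
  · rw [b₁ a (mem_sup_right ha) b hb, show (a * b)⁻¹ * (g a * b) = b⁻¹ * (a⁻¹ * g a) * b by group]
    exact conj_mem_of_mem_normalizer'
      (centralizer_le_normalizer _ (centralizer_le hU (h.comm' hb))) (a₂ a ha)

theorem nrm_of_nrm (h : CPr E₁ E₂ D) (hD : Sat D p) (hC : Nrm C E₁ p) : Nrm C D p :=
  ⟨h.inv_of_inv hC.toInv, hC.satE, hD, h.extCond hC.le hC.ext⟩

theorem sub_of (h : CPr E₁ E₂ D) (h₁ : Cen F E₁ T₂) (h₂ : Cen F E₂ T₁) : D.IsSubsystemOf F :=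
  isSubsystemOf_iff.2 fun P f hf => by
    obtain ⟨P₁, P₂, f₁, f₂, k₁, k₂, hP, e⟩ := (h.mor _ _).1 hf
    obtain ⟨g₁, l₁, a₁, b₁⟩ := h₁.ex k₁
    obtain ⟨g₂, l₂, a₂, b₂⟩ := h₂.ex k₂
    have key : ∀ x ∈ P, x ∈ P₂ ⊔ T₁ ∧ g₂ x ∈ P₁ ⊔ T₂ ∧ f x = g₁ (g₂ x) := fun x hx => by
      obtain ⟨a, ha, b, hb, rfl⟩ := exists_mul_of_comm h.comm k₁.le k₂.le (hP hx)
      rw [l₂.homOn.map_mul (mem_sup_right (k₁.le ha)) (mem_sup_left hb), b₂ a (k₁.le ha), a₂ b hb,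
        l₁.homOn.map_mul (mem_sup_left ha) (mem_sup_right (k₂.mem hb)), a₁ a ha, b₁ _ (k₂.mem hb)]
      exact ⟨mul_mem (mem_sup_right (k₁.le ha)) (mem_sup_left hb),
        mul_mem (mem_sup_left ha) (mem_sup_right (k₂.mem hb)), e a ha b hb hx⟩
    exact ((l₂.mono fun x hx => (key x hx).1).comp l₁ fun x hx => (key x hx).2.1).congr
      fun x hx => (key x hx).2.2

theorem cen_of (h : CPr E₁ E₂ D) {X : Subgroup Ω} (h₁ : Cen F E₁ (T₂ ⊔ X)) (h₂ : Cen F E₂ (T₁ ⊔ X)) :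
    Cen F D X := by
  refine ⟨le_centralizerIn_comm (le_sup_right.trans h₁.le_top) (h.eq.le.trans (sup_le
    (h₁.mono le_sup_right).le' (h₂.mono le_sup_right).le')), fun {P f} hf => ?_⟩
  obtain ⟨P₁, P₂, f₁, f₂, k₁, k₂, hP, e⟩ := (h.mor _ _).1 hf
  obtain ⟨g₁, l₁, a₁, b₁⟩ := h₁.ex k₁
  obtain ⟨g₂, l₂, a₂, b₂⟩ := h₂.ex k₂
  have key : ∀ x ∈ P, x ∈ P₂ ⊔ (T₁ ⊔ X) ∧ g₂ x ∈ P₁ ⊔ (T₂ ⊔ X) ∧ g₁ (g₂ x) = f x := fun x hx => by
    obtain ⟨a, ha, b, hb, rfl⟩ := exists_mul_of_comm h.comm k₁.le k₂.le (hP hx)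
    have m1 := mem_sup_left (T := X) (k₁.le ha)
    have m2 := mem_sup_left (T := X) (k₂.mem hb)
    rw [l₂.homOn.map_mul (mem_sup_right m1) (mem_sup_left hb), b₂ a m1, a₂ b hb,
      l₁.homOn.map_mul (mem_sup_left ha) (mem_sup_right m2), a₁ a ha, b₁ _ m2]
    exact ⟨mul_mem (mem_sup_right m1) (mem_sup_left hb),
      mul_mem (mem_sup_left ha) (mem_sup_right m2), (e a ha b hb hx).symm⟩
  have l₂' := l₂.mono (sup_le (fun x hx => (key x hx).1) (le_sup_of_le_right le_sup_right))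
  exact ⟨_, l₂'.comp l₁ (l₂'.homOn.mem_of_sup (fun x hx => (key x hx).2.1) fun x hx => by
      rw [b₂ x (mem_sup_right hx)]; exact mem_sup_right (mem_sup_right hx)),
    fun x hx => (key x hx).2.2, fun x hx => by rw [b₂ x (mem_sup_right hx), b₁ x (mem_sup_right hx)]⟩

theorem stable (h : CPr E₁ E₂ D) (h₁ : Inv E₁ F) (h₂ : Inv E₂ F) (hT : T ≤ S) {α : MulAut T}
    (hα : α ∈ F.autGroup T) : Stable D α := fun P f hf => by
  obtain ⟨P₁, P₂, f₁, f₂, k₁, k₂, hP, e⟩ := (h.mor _ _).1 hf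
  have hm := mor_ext hT hα
  have a₁ := k₁.le.trans h.le₁
  have a₂ := k₂.le.trans h.le₂
  refine (h.mor _ _).2 ⟨_, _, fun y => ext α (f₁ (ext α⁻¹ y)), fun y => ext α (f₂ (ext α⁻¹ y)),
    h₁.transport (hm.mono h.le₁) le_rfl k₁ k₁.le (fun _ => k₁.mem) fun x _ => by rw [ext_inv_ext],
    h₂.transport (hm.mono h.le₂) le_rfl k₂ k₂.le (fun _ => k₂.mem) fun x _ => by rw [ext_inv_ext],
    (im_mono _ hP).trans ((hm.homOn.mono (sup_le a₁ a₂)).im_sup).le, fun a ha b hb hab => ?_⟩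
  rw [mem_im_ext α a₁] at ha
  rw [mem_im_ext α a₂] at hb
  have ha' := (ext_mem_iff _).1 (a₁ ha)
  have hb' := (ext_mem_iff _).1 (a₂ hb)
  rw [mem_im_ext α hf.le, (homOn_ext _).map_mul ha' hb'] at hab
  beta_reduce
  rw [(homOn_ext _).map_mul ha' hb', e _ ha _ hb hab,
    (homOn_ext _).map_mul (h.le₁ (k₁.mem ha)) (h.le₂ (k₂.mem hb))]

end CPr

variable [Finite S] [Fact p.Prime]

theorem autInducedBy_le_extIn (hS : IsPGroup p S) (hT : F.StronglyClosed T) (hP : P < T) :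
    autInducedBy S P ≤ extIn F T P := fun α hα => by
  have := finite_of_le hT.1
  obtain ⟨s, hs, e⟩ := mem_autInducedBy.1 hα
  exact (mor_conj F ((normalizerIn_le T P).trans hT.1) hs).mem_extIn
    (lt_normalizerIn (hS.to_le hT.1) hP) (normalizerIn_le T P) fun x hx => (e x hx).symm

theorem CPr.inv (h : CPr E₁ E₂ D) (h₁ : Inv E₁ F) (h₂ : Inv E₂ F) (hF : Sat F p)
    (hD : D.IsSubsystemOf F) (hT : F.StronglyClosed T) : Inv D F := by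
  have := finite_of_le hT.1
  refine hF.inv_of_extIn hD hT (fun α hα => h.stable h₁ h₂ hT.1 hα) fun P hP hn => ?_
  have := finite_of_le hn.1
  have n₁ := autGroup_le_stab hn.1 h₁.sc
  have n₂ := autGroup_le_stab hn.1 h₂.sc
  by_cases hc : P ≤ P ⊓ T₁ ⊔ P ⊓ T₂
  · refine hF.le_sup_extIn hn hP.le (autGroup_mono hD P) (fun γ hγ =>
      mem_normalizer_of_conj_mem fun α hα => ?_) fun hle =>
      (lt_normalizerIn (hF.pg.to_le hT.1) hP).not_ge fun s hs => hle ⟨mem_normK.2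
        ⟨⟨hT.1 hs.1, hs.2⟩, cjA_mem_autGroup D hP.le hs.1⟩, hs.1⟩
    have hg := mor_ext hn.1 hγ
    have ha := mor_ext hP.le hα
    have key : ∀ {T' : Subgroup Ω} {E' : FusionSystem T'}, Inv E' F → Mor E' (P ⊓ T') (ext α) →
        Mor E' (P ⊓ T') (ext (γ * α * γ⁻¹)) := fun {T' E'} h' hm => by
      have := h'.transport (k := ext (γ * α * γ⁻¹)) (hg.mono inf_le_left) inf_le_right hm le_rfl
        (fun x hx => ⟨ext_mem α hx.1, hm.mem hx⟩) fun x _ => by rw [ext_mul, ext_mul, ext_inv_ext]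
      rwa [hg.im_inf_of_stronglyClosed h'.sc, im_ext] at this
    exact (h.mor_of_sup (homOn_ext _) hc (key h₁ (h.mor₁ (ha.mono inf_le_left) inf_le_right))
      (key h₂ (h.mor₂ (ha.mono inf_le_left) inf_le_right)) inf_le_left inf_le_left).mem_autGroup
  · have a1 : ¬ T₁ ⊓ (P ⊔ T₂) ≤ P := fun hle => hc fun x hx => by
      obtain ⟨a, ha, b, hb, rfl⟩ := h.exists_mul (hP.le hx)
      have ha' : a ∈ P := hle ⟨ha, (mul_mem_cancel_right (mem_sup_right hb)).1 (mem_sup_left hx)⟩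
      exact mul_mem (mem_sup_left ⟨ha', ha⟩)
        (mem_sup_right ⟨(mul_mem_cancel_left ha').1 hx, hb⟩)
    have b₁ := le_normalizer_of_stronglyClosed h₁.sc
    have b₂ := le_normalizer_of_stronglyClosed h₂.sc
    obtain ⟨s, hs, hs1, hs2⟩ : ∃ s ∈ T₁ ⊓ (P ⊔ T₂), s ∈ normalizer (P : Set Ω) ∧ s ∉ P := by
      by_contra! H
      have := finite_of_le h₁.le
      exact a1 (le_of_normalizer_le hF.pg hn.1 (inf_le_left.trans h₁.le) (fun x hx =>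
        mem_normalizer_of_conj_mem fun y hy => mem_inf.2
          ⟨conj_mem_of_mem_normalizer (b₁ (hn.1 hx)) hy.1,
          mul_mem (mul_mem (mem_sup_left hx) hy.2) (inv_mem (mem_sup_left hx))⟩) H)
    let K : Subgroup (MulAut P) :=
      F.autGroup P ⊓ (modTriv P T₁ ⊓ extOf (autInducedBy P (P ⊓ T₁)) P)
    have hK : F.autGroup P ≤ normalizer (K : Set (MulAut P)) := fun γ hγ =>
      mem_normalizer_of_conj_mem fun α ⟨k1, k2, β, hβ, e⟩ => by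
        obtain ⟨y, hy, e'⟩ := mem_autInducedBy.1 hβ
        have m : ∀ x ∈ P ⊓ T₁, ext γ⁻¹ x ∈ P ⊓ T₁ := fun x hx =>
          ⟨ext_mem _ hx.1, (inv_mem (n₁ hγ) x hx.1).2 hx.2⟩
        refine ⟨mul_mem (mul_mem hγ k1) ((F.autGroup P).inv_mem hγ), fun x hx => ?_,
          cjA _ (ext γ y), cjA_mem_autInducedBy (ext_mem γ hy), fun x hx => ?_⟩
        · have m1 := ext_mem γ⁻¹ hx
          have m2 := mul_mem (inv_mem m1) (ext_mem α m1)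
          have := (n₁ hγ _ m2).2 (k2 _ m1)
          rwa [(homOn_ext γ).map_mul (inv_mem m1) (ext_mem α m1), (homOn_ext γ).map_inv m1,
            ext_ext_inv, ← ext_mul, ← ext_mul] at this
        · rw [ext_cjA (le_normalizer_inf h₁.sc hn.1 (ext_mem γ hy)) hx, ext_mul, ext_mul,
            e _ (m x hx), e' _ (m x hx), (homOn_ext γ).map_conj hy (m x hx).1, ext_ext_inv]
    have hp : IsPGroup p K := isPGroup_of_coprime_eq_one fun α ⟨_, k2, β, hβ, e⟩ hα => by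
      have := eq_one_of_isPGroup_of_coprime (isPGroup_autInducedBy (hF.pg.to_le hn.1) _) hβ
        (coprime_of_eqOn inf_le_left e hα)
      subst this
      exact eq_one_of_ext fun x hx => ext_eq_of_coprime (hF.pg.to_le hn.1) hα
        (fun b hb hb' => by rw [e b ⟨hb, hb'⟩, ext_one]) hx (k2 x hx)
    refine (hF.le_sup_extIn hn hP.le inf_le_left hK fun hle => hs2 (hle ⟨mem_normK.2
      ⟨⟨h₁.le hs.1, hs1⟩, cjA_mem_autGroup F hn.1 (h₁.le hs.1), fun x hx => ?_, ?_⟩,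
        h.le₁ hs.1⟩)).trans (sup_le (le_sup_of_le_right
        ((le_of_normal_of_not_dvd hK hp inf_le_left (hF.not_dvd hn)).trans
          (autInducedBy_le_extIn hF.pg hT hP))) le_sup_right)
    · rw [ext_cjA hs1 hx, show x⁻¹ * (s * x * s⁻¹) = x⁻¹ * s * x * s⁻¹ by group]
      exact mul_mem (conj_mem_of_mem_normalizer' (b₁ (hn.1 hx)) hs.1) (inv_mem (mem_inf.1 hs).1)
    · obtain ⟨y, hy, b, hb, rfl⟩ := exists_mul_of_mem_sup' (hn.1.trans b₂) (sup_comm P T₂ ▸ hs.2)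
      refine ⟨cjA _ y, cjA_mem_autInducedBy hy, fun x hx => ?_⟩
      rw [ext_cjA hs1 hx.1, ext_cjA (le_normalizer_inf h₁.sc hn.1 hy) hx, mul_inv_rev,
        show y * b * x * (b⁻¹ * y⁻¹) = y * (b * x * b⁻¹) * y⁻¹ by group,
        conj_eq_of_mem_centralizer (h.comm' hb) hx.2]

theorem Nrm.cen_of_comm (h₁ : Nrm E₁ F p) (h₂ : F.StronglyClosed T₂)
    (hc : T₁ ≤ centralizer (T₂ : Set Ω)) (z₁ : E₁.IsCentral (T₁ ⊓ T₂)) : Cen F E₁ T₂ :=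
  h₁.cen_of_cen h₂ (cen_of_central (inf_comm T₁ T₂ ▸ z₁) (subsystem_refl _)) h₁.satE
    (Or.inr (le_inf h₁.le hc))

theorem Nrm.exists_coprime_ext_fix (h₁ : Nrm E₁ F p) {X : Subgroup Ω} (hX : Cen F E₁ X)
    {α : MulAut T₁} (hα : α ∈ E₁.autGroup T₁) (hp : (orderOf α).Coprime p) :
    ∃ g, Mor F (vc S T₁) g ∧ (∀ x ∈ vc S T₁, x⁻¹ * g x ∈ T₁) ∧ (∀ x ∈ T₁, g x = Fusion.ext α x) ∧
      ∀ x ∈ X, g x = x := by
  have := finite_of_le h₁.le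
  obtain ⟨β, b1, b2, b3⟩ := h₁.exists_coprime_ext (centric_top E₁)
    (h₁.satF.fc (fullyNormalized_of_stronglyClosed h₁.sc)) hα hp
  exact ⟨_, b1.mor, b1.mod, b3, fun x hx => hX.fix h₁ (centric_of_le (centric_top E₁)
    (le_inf le_sup_left le_rfl) inf_le_right) b1 b2 (mem_sup_right (hX.le hx)) hx⟩

theorem Nrm.nrm_cPr.{v} {Ω : Type v} [Group Ω] {S T T₁ T₂ : Subgroup Ω} [Finite S]
    {F : FusionSystem S} {E₁ : FusionSystem T₁} {E₂ : FusionSystem T₂} {D : FusionSystem T}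
    (h₁ : Nrm E₁ F p) (h₂ : Nrm E₂ F p) (h : CPr E₁ E₂ D) : Nrm D F p := by
  have := finite_of_le h₁.le
  have := finite_of_le h₂.le
  have c₁ := h₁.cen_of_comm h₂.sc h.comm h.z₁
  have c₂ := h₂.cen_of_comm h₁.sc h.comm' h.symm.z₁
  have hT : F.StronglyClosed T := h.eq ▸ h₁.satF.stronglyClosed_sup h₁.sc h₂.sc
  have hD := h.sat h₁.satE h₂.satE
  refine ⟨h.inv h₁.toInv h₂.toInv h₁.satF (h.sub_of c₁ c₂) hT, hD, h₁.satF,
    extCond_of_coprime hD hT fun α hα hp => ?_⟩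
  have hm := mor_ext le_rfl hα
  obtain ⟨α₁, a₁, e₁⟩ := (h.mor₁ (hm.mono h.le₁) le_rfl).exists_aut_top
  obtain ⟨α₂, a₂, e₂⟩ := (h.mor₂ (hm.mono h.le₂) le_rfl).exists_aut_top
  obtain ⟨g₁, k₁, l₁, m₁, n₁⟩ := h₁.exists_coprime_ext_fix c₁ a₁
    (coprime_of_eqOn h.le₁ (fun x hx => (e₁ x hx).symm) hp)
  obtain ⟨g₂, k₂, l₂, m₂, n₂⟩ := h₂.exists_coprime_ext_fix c₂ a₂
    (coprime_of_eqOn h.le₂ (fun x hx => (e₂ x hx).symm) hp)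
  have v₁ : vc S T ≤ vc S T₁ := sup_le (h.eq.le.trans (sup_le_sup_left c₁.le _))
    (le_sup_of_le_right (centralizerIn_anti S h.le₁))
  have v₂ : vc S T ≤ vc S T₂ := sup_le (h.symm.eq.le.trans (sup_le_sup_left c₂.le _))
    (le_sup_of_le_right (centralizerIn_anti S h.le₂))
  have w : ∀ x ∈ vc S T, g₂ x ∈ vc S T := fun x hx =>
    (mul_mem_cancel_left (inv_mem hx)).1 (mem_sup_left (h.le₂ (l₂ x (v₂ hx))))
  have hg := (k₂.mono v₂).comp k₁ fun x hx => v₁ (w x hx)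
  have e : ∀ x ∈ T, g₁ (g₂ x) = Fusion.ext α x := fun x hx => by
    obtain ⟨a, ha, b, hb, rfl⟩ := h.exists_mul hx
    have hb' := ext_mem α₂ hb
    rw [k₂.homOn.map_mul (mem_sup_right (c₂.le ha)) (mem_sup_left hb), n₂ a ha, m₂ b hb,
      k₁.homOn.map_mul (mem_sup_left ha) (mem_sup_right (c₁.le hb')), m₁ a ha, n₁ _ hb', e₁ a ha,
      e₂ b hb, hm.homOn.map_mul (h.le₁ ha) (h.le₂ hb)]
  obtain ⟨β, hβ, e'⟩ := hg.exists_aut_sup_centralizerIn ((im_congr e).trans (im_ext α))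
  refine ⟨β, hβ, fun x hx => ?_, fun x hx => (e' x (mem_sup_left hx)).trans (e x hx)⟩
  rw [e' x hx, show x⁻¹ * g₁ (g₂ x) = x⁻¹ * g₂ x * ((g₂ x)⁻¹ * g₁ (g₂ x)) by group]
  exact mul_mem (h.le₂ (l₂ x (v₂ hx))) (h.le₁ (l₁ _ (v₁ (w x hx))))

theorem Nrm.exists_central (h : Nrm E₁ F p) (hQ : F.IsNormal Q)
    (hc : T₁ ≤ centralizer (Q : Set Ω)) :
    ∃ E : FusionSystem T₁, Nrm E F p ∧ Nrm E E₁ p ∧ Cen F E Q := by
  obtain ⟨C, hC⟩ := exists_cz F hQ.1 rfl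
  obtain ⟨E, -, a1, a2, a3, -⟩ := h.exists_meet (hC.nrm h.satF hQ)
    (inf_eq_left.2 (le_inf h.le hc)).symm
  exact ⟨E, a1, a2, hC.sub_iff.1 a3.sub⟩

theorem Nrm.exists_nrm_sup.{v} {Ω : Type v} [Group Ω] {S T T₁ T₂ : Subgroup Ω} [Finite S]
    {F : FusionSystem S} {E₁ : FusionSystem T₁} {E₂ : FusionSystem T₂}
    (h₁ : Nrm E₁ F p) (h₂ : Nrm E₂ F p) (hc : T₁ ≤ centralizer (T₂ : Set Ω)) (e : T = T₁ ⊔ T₂) :
    ∃ D : FusionSystem T, Nrm D F p := by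
  have := finite_of_le h₁.le
  have := finite_of_le h₂.le
  have hZ := h₁.satF.normal_of_commutative (stronglyClosed_inf h₁.sc h₂.sc) fun x hx y hy =>
    comm_of_le_centralizer hc hx.1 hy.2
  obtain ⟨D₁, a₁, -, b₁⟩ := h₁.exists_central hZ (hc.trans (centralizer_le inf_le_right))
  obtain ⟨D₂, a₂, -, b₂⟩ := h₂.exists_central hZ
    ((le_centralizer_iff.1 hc).trans (centralizer_le inf_le_left))
  obtain ⟨D, hD⟩ := exists_cPr hc (b₁.central a₁.satE inf_le_left)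
    (b₂.central a₂.satE inf_le_right) e
  exact ⟨D, a₁.nrm_cPr a₂ hD⟩

end Cfsg.Lib.Fusion
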