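import Cfsg.Agent.Lib.Fusion.LieSimple
import Cfsg.Agent.Lib.St.Lie
import Cfsg.Agent.Lib.Mult.Fam
import Cfsg.Agent.Lib.Linear.PCentral

/-!
Simplicity of the fusion systems of the classical groups in the defining characteristic.
-/

set_option autoImplicit false
set_option linter.unusedSectionVars false

namespace Cfsg.Lib.St
open Subgroup

theorem exists_small' (F : Type*) [Field F] [Fintype F] (p : ℕ) [CharP F p] :
    ∃ (K : Type) (_ : Field K) (_ : Fintype K) (_ : CharP K p),
      Fintype.card K = Fintype.card F ∧ Nonempty (F ≃+* K) :=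
  let e : Shrink.{0} F ≃+* F := { (equivShrink.{0} F).symm with
    map_mul' := fun _ _ => (equivShrink.{0} F).symm_apply_apply _
    map_add' := fun _ _ => (equivShrink.{0} F).symm_apply_apply _ }
  ⟨_, inferInstance, .ofFinite _,
    charP_of_injective_ringHom (f := e.symm.toRingHom) (RingEquiv.injective _) p,
    @Fintype.card_congr _ _ (.ofFinite _) _ e.toEquiv, ⟨e.symm⟩⟩

theorem fusion_simple_of_transv {p : ℕ} [Fact p.Prime] {F V G H : Type*} [Field F] [CharP F p]
    [AddCommGroup V] [Module F V] [Group G] [Group H] (hG : IsLieTypeChar p G)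
    (e : G ≃* H ⧸ center H) (hZ : Linear.CenterPFree p H) (ρ : H →* (V ≃ₗ[F] V))
    (hρ : Function.Injective ρ) {a b c d : H} {α β γ δ : V →ₗ[F] F} {u v v' w y y' : V}
    (ha : ∀ x, ρ a x = x + α x • u) (hb : ∀ x, ρ b x = x + β x • v)
    (hc : ∀ x, ρ c x = x + γ x • v') (hd : ∀ x, ρ d x = x + δ x • w)
    (h1 : α u = 0) (h2 : β v = 0) (h3 : γ v' = 0) (h4 : δ w = 0) (h5 : α v = 0) (h6 : β u = 0)
    (h7 : β v' = 0) (h8 : γ v = 0) (h9 : γ w = 0) (h10 : δ v' = 0) (h11 : α w * δ u = -1)
    (h12 : β y • v ≠ 0) (h13 : γ y' • v' ≠ 0) (S : Sylow p G) :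
    (groupFusionSystem (S : Subgroup G)).IsSimple p := by
  have := simple_of_lie hG
  have := finite_of_lie hG
  obtain ⟨L⟩ := nonempty_lieP hG
  have ext : ∀ {s t : H}, (∀ x, ρ s x = ρ t x) → s = t := fun h => hρ (LinearEquiv.ext h)
  have pw : ∀ {s : H} {σ : V →ₗ[F] F} {z : V}, (∀ x, ρ s x = x + σ x • z) → σ z = 0 →
      s ^ p = 1 := fun {s σ z} h h' => ext fun x => by
    have : ∀ n : ℕ, ρ (s ^ n) x = x + (n * σ x) • z := fun n => by
      induction n with
      | zero => simp
      | succ n ih => rw [pow_succ', map_mul, LinearEquiv.mul_apply, ih]; simp [h, h', add_mul, add_smul, add_assoc]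
    rw [this]; simp
  have cm : ∀ {s t : H} {σ τ : V →ₗ[F] F} {z z' : V}, (∀ x, ρ s x = x + σ x • z) →
      (∀ x, ρ t x = x + τ x • z') → σ z' = 0 → τ z = 0 → s * t = t * s :=
    fun h h' k k' => ext fun x => by simp [h, h', k, k', add_right_comm]
  have hw : α w • u ≠ 0 := fun h => by simpa [h11] using congrArg δ h
  let φ := e.symm.toMonoidHom.comp (QuotientGroup.mk' (center H))
  have ne : ∀ {s t : H}, s ^ p = 1 → t ^ p = 1 → ∀ x, ρ s x ≠ ρ t x → φ s ≠ φ t :=
    fun h h' x k k' => k (by rw [hZ.eq_of_mk_eq h h' (e.symm.injective k')])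
  have ne1 : ∀ {s : H}, s ^ p = 1 → ∀ x, ρ s x ≠ x → φ s ≠ 1 :=
    fun h x k => by simpa using ne h (one_pow _) x (by simpa)
  have pw' : ∀ {s : H}, s ^ p = 1 → φ s ^ p = 1 := fun h => by rw [← map_pow, h, map_one]
  have := L.nontrivial_of_chain (pw' (pw ha h1)) (pw' (pw hb h2)) (pw' (pw hc h3))
    (pw' (pw hd h4)) (ne1 (pw ha h1) w (by simpa [ha] using hw))
    (ne1 (pw hb h2) y (by simpa [hb] using h12)) (ne1 (pw hc h3) y' (by simpa [hc] using h13))
    (by rw [← map_mul, cm ha hb h5 h6, map_mul]) (by rw [← map_mul, cm hb hc h7 h8, map_mul])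
    (by rw [← map_mul, cm hc hd h9 h10, map_mul]) (by
      simp only [← map_mul]
      refine congrArg φ (ext fun x => ?_)
      simp only [map_mul, LinearEquiv.mul_apply, ha, hd, map_add, map_smul, h1, h4, smul_eq_mul]
      match_scalars
      · rfl
      · linear_combination (-δ x) * h11
      · linear_combination (α x) * h11)
    (ne (pw ha h1) (pw hd h4) w (by simpa [ha, hd, h4] using hw))
  exact L.fusion_simple S

end Cfsg.Lib.St
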