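import Cfsg.Agent.Lib.Fusion.CtrlFoc
import Cfsg.Agent.Lib.Transfer.Functor

/-!
Local-to-global control by a functor containing the centre, tested only on subgroups containing
the centre of the Sylow subgroup.
-/

set_option autoImplicit false

namespace Cfsg.Lib.Fusion

open Subgroup Cfsg.Lib.Transfer
open Cfsg.FusionSystem hiding inv_mem
open scoped commutatorElement

variable {p : ℕ} [Fact p.Prime] {Ω : Type*} [Group Ω] {S T : Subgroup Ω} {F : FusionSystem S}
  {E : FusionSystem T} [Finite S]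

theorem Sat.sub_of_centric_family (hF : Sat F p)
    (h : ∀ P, F.IsCentric P → ∃ Q, F.IsConj P Q ∧ F.IsFullyNormalized Q ∧
      ∀ α ∈ F.autGroup Q, Mor E Q (ext α)) : F.IsSubsystemOf E := by
  refine isSubsystemOf_iff.2 fun P f hf => hF.aft_fcr (C := Mor E)
    (fun _ _ _ _ _ h hle e => (h.mono hle).congr e) (fun _ _ _ _ _ _ h h' hm => h.comp h' hm)
    (fun P hP hc _ ih α hα => ?_) hf
  obtain ⟨Q, h1, h2, h3⟩ := h P hc
  have := finite_of_le h2.1
  rcases hP.1.eq_or_lt with rfl | hlt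
  · obtain rfl : Q = P := eq_of_le_of_card_ge h2.1 (isConj_card h1).le
    exact h3 α hα
  obtain ⟨g, hg, rfl⟩ := hF.exists_mor_normalizerIn h2 h1
  have hg' := (ih _ g (card_lt_of_lt' (lt_normalizerIn hF.pg hlt)) hg).mono (le_normalizerIn hP.1)
  replace hg := hg.mono (le_normalizerIn hP.1)
  obtain ⟨τ, hτ⟩ := hg.homOn.exists_congr hg.injOn rfl
  obtain ⟨k, hk, e, -⟩ := hg'.inv
  exact ((hg'.comp (h3 _ ((hg.congr_mem_autGroup rfl hτ α).2 hα)) fun x hx =>
    mem_im_of_mem g hx).comp hk fun x hx => ext_mem _ (mem_im_of_mem g hx)).congr fun x hx => by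
      rw [hτ α x hx, e _ (ext_mem α hx)]

theorem Sat.sub_of_functor_center (hF : Sat F p) (V : Subgroup Ω → Subgroup Ω)
    (hle : ∀ T ≤ S, V T ≤ T) (him : ∀ T f, Mor F T f → im f (V T) = V (im f T))
    (hZ : ∀ T ≤ S, centralizerIn T T ≤ V T) (hS : NSub F (V S) E)
    (hloc : ∀ U, centralizerIn S S ≤ U → F.IsFullyNormalized U →
      NSub F (V (normalizerIn S U)) E → NSub F U E) : F.IsSubsystemOf E := by
  have h1 : ∀ U ≤ S, centralizerIn S S ≤ V (normalizerIn S U) := fun U hU =>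
    le_trans (fun z hz => mkC (centralizerIn_le_normalizerIn S U (centralizerIn_anti S hU hz))
      (centralizer_le (normalizerIn_le S U) hz.2)) (hZ _ (normalizerIn_le S U))
  refine hF.sub_of_centric_family fun P hP => ?_
  by_cases h0 : P = ⊥
  · subst h0
    obtain ⟨Q, hQ, hQ'⟩ := exists_fullyNormalized F hP.1
    obtain rfl : Q = ⊥ := card_eq_one.1 ((isConj_card hQ).symm.trans card_bot)
    exact ⟨⊥, hQ, hQ', fun α hα => (mor_ext hQ'.1 hα).bot E⟩
  obtain ⟨Q, h2, h3, h4⟩ := hF.exists_conj_functor V hle him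
    (fun U hU hU0 e => centralizerIn_ne_bot hF.pg (fun e => hU0 (eq_bot_iff.2 (e ▸ hU)))
      (eq_bot_iff.2 (e ▸ h1 U hU))) (Φ := fun U => centralizerIn S S ≤ U → NSub F U E)
    (fun _ => hS) (fun U _ hU h h' => hloc U h' hU (h (h1 U hU.1))) hP.1 h0
  exact ⟨Q, h2, h3, fun α hα => (h4 ((centralizerIn_anti S h3.1).trans (hP.2 Q h2))).mor_ext
    h3.1 hα⟩

section Grp

variable {G : Type*} [Group G] {V U Q : Subgroup G} {A : FusionSystem V} {B : FusionSystem U}

omit [Fact p.Prime] in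
theorem Grp.nSub_iff (h : Grp A ⊤) (hQ : Q ≤ V) : NSub A Q B ↔ ∀ X ≤ normalizerIn V Q,
    ∀ g ∈ normalizer (Q : Set G), g ⋆ X ≤ V → Mor B X (fun x => g * x * g⁻¹) := by
  obtain ⟨N, hN⟩ := exists_nz A hQ rfl
  have h1 := h.nz hN
  rw [normalizerIn_top] at h1
  rw [hN.nSub_iff, isSubsystemOf_iff]
  refine ⟨fun H X hX g hg hm => H _ _ (h1.mor_conj hX hg fun x hx => mkN (hm hx) ?_),
    fun H X f hf => ?_⟩
  · obtain ⟨y, hy, rfl⟩ := hx
    exact mul_mem (mul_mem hg (hX hy).2) (inv_mem hg)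
  · obtain ⟨g, hg, e, hm, -⟩ := h1.exists_conj hf
    exact (H X hf.le g hg (hm.trans (normalizerIn_le _ _))).congr e

/-- Group form: a relation `R A g` ("conjugation by `g` on `A` is good") closed under the groupoid
operations holds globally once it holds in `N(W P)` and passes from `N(W(N_P U))` to `N(U)` for
the extremal `U ≥ Z(P)`. -/
theorem rel_of_functor_center [Finite G] (P : Sylow p G) {W : Subgroup G → Subgroup G}
    (hW : IsConjugacyFunctor p W)
    (hZ : ∀ H : Subgroup G, IsPGroup p H → H ⊓ centralizer (H : Set G) ≤ W H)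
    (R : Subgroup G → G → Prop)
    (congr : ∀ X g h, R X g → (∀ x ∈ X, h * x * h⁻¹ = g * x * g⁻¹) → R X h)
    (comp : ∀ (X Y : Subgroup G) g h, X ≤ P → Y ≤ P → h ⋆ Y ≤ P → R X g → R Y h → g ⋆ X ≤ Y →
      R X (h * g))
    (inv : ∀ (X : Subgroup G) g, X ≤ P → g ⋆ X ≤ P → R X g → R (g ⋆ X) g⁻¹)
    (hS : ∀ X ≤ (P : Subgroup G), ∀ g ∈ normalizer (W P : Set G), g ⋆ X ≤ P → R X g)
    (hloc : ∀ U : Subgroup G, (P : Subgroup G) ⊓ centralizer ((P : Subgroup G) : Set G) ≤ U →
      U ≤ P → ¬ p ∣ ((P : Subgroup G) ⊓ normalizer (U : Set G)).relIndex (normalizer (U : Set G)) →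
      (∀ X ≤ (P : Subgroup G) ⊓ normalizer (U : Set G),
        ∀ g ∈ normalizer (W ((P : Subgroup G) ⊓ normalizer (U : Set G)) : Set G),
          g ⋆ X ≤ P → R X g) →
      ∀ X ≤ (P : Subgroup G) ⊓ normalizer (U : Set G), ∀ g ∈ normalizer (U : Set G),
        g ⋆ X ≤ P → R X g) : ∀ X ≤ (P : Subgroup G), ∀ g, g ⋆ X ≤ P → R X g := by
  have hA := sylGrp_group P
  have hp : ∀ T ≤ (P : Subgroup G), IsPGroup p T := fun T hT => P.2.to_le hT
  obtain ⟨E, hE⟩ := exists_sub (groupFusionSystem (P : Subgroup G)) le_rfl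
    (M := fun X f => ∃ g, (∀ x ∈ X, f x = g * x * g⁻¹) ∧ R X g)
    (fun ⟨g, e, h⟩ e' => ⟨g, fun x hx => (e' x hx).trans (e x hx), h⟩)
    (fun {X s} hX hs => ⟨s, fun _ _ => rfl, hS X hX s (le_normalizer_functor hW P.2 hs)
      (conj_le_iff.2 fun x hx => mul_mem (mul_mem hs (hX hx)) (inv_mem hs))⟩)
    (fun {X Y f k} hX hY _ _ hm ⟨g, e, h⟩ ⟨g', e', h'⟩ hXY => ⟨g' * g, fun x hx => by
      beta_reduce; rw [e' _ (hXY x hx), e x hx]; group,
      comp X Y g g' hX hY (conj_le_iff.2 fun y hy => e' y hy ▸ hm y hy) h h'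
        (conj_le_iff.2 fun x hx => e x hx ▸ hXY x hx)⟩)
    (fun {X f k} hX hm hf _ ⟨g, e, h⟩ e' => by
      have h1 : im f X = g ⋆ X := by rw [im_congr e, im_conj]
      rw [h1] at hm ⊢
      refine ⟨g⁻¹, ?_, inv X g hX hm h⟩
      rintro _ ⟨x, hx, rfl⟩
      have := e' x hx
      rw [e x hx] at this
      simpa [mul_assoc] using this)
  have key : ∀ X ≤ (P : Subgroup G), ∀ g, g ⋆ X ≤ P →
      (Mor E X (fun x => g * x * g⁻¹) ↔ R X g) := fun X hX g hm => by
    rw [hE]
    exact ⟨fun ⟨_, _, _, g', e, h⟩ => congr X g' g h e, fun h =>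
      ⟨hA.mor_conj hX (mem_top g) hm, hX, conj_le_iff.1 hm, g, fun _ _ => rfl, h⟩⟩
  have := hA.sat.sub_of_functor_center (E := E) W (fun T hT => functor_le hW (hp T hT))
    (fun T f hf => by
      obtain ⟨g, -, e, -, h⟩ := hA.exists_conj hf
      rw [h, functor_conj hW (hp T hf.le),
        im_congr fun x hx => e x (functor_le hW (hp T hf.le) hx), im_conj])
    (fun T hT => hZ T (hp T hT))
    ((hA.toGrp.nSub_iff (functor_le hW P.2)).2 fun X hX g hg hm =>
      (key X (hX.trans inf_le_left) g hm).2 (hS X (hX.trans inf_le_left) g hg hm))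
    fun U hU hn h => (hA.toGrp.nSub_iff hn.1).2 fun X hX g hg hm => by
      have h1 := (hA.fn_iff hn.1).1 hn
      rw [normalizerIn_top] at h1
      have h2 := hp _ (normalizerIn_le P U)
      refine (key X (hX.trans inf_le_left) g hm).2 (hloc U hU hn.1 h1 (fun Y hY y hy hm => ?_)
        X hX g hg hm)
      exact (key Y (hY.trans inf_le_left) y hm).1 ((hA.toGrp.nSub_iff
        ((functor_le hW h2).trans inf_le_left)).1 h Y
        (le_inf (hY.trans inf_le_left) (hY.trans (le_normalizer_functor hW h2))) y hy hm)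
  exact fun X hX g hm => (key X hX g hm).1 ((hA.mor_conj hX (mem_top g) hm).of_sub this)

end Grp

end Cfsg.Lib.Fusion

namespace Cfsg.Lib.Transfer.Fus

variable {G : Type*} [Group G] {T : Subgroup G} {ok : G → Prop} {A B : Set G} {g : G}

theorem symm (H : Fus T ok A g) (hok : ∀ x, ok x → ok x⁻¹) (hA : A ⊆ T)
    (hB : ∀ b ∈ B, g⁻¹ * b * g ∈ A) : Fus T ok B g⁻¹ := by
  induction H generalizing B with
  | @base h e =>
    refine .base fun b hb => ?_
    have := e _ (hB b hb)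
    simpa [mul_assoc] using this.symm
  | @step c x h hc hx _ e ih =>
    have h1 : ∀ b ∈ B, x⁻¹ * b * x⁻¹⁻¹ = c * (h⁻¹ * b * h) * c⁻¹ := fun b hb => by
      have := e _ (hB b hb)
      have h2 : b = x * (c * (h⁻¹ * b * h) * c⁻¹) * x⁻¹ := by rw [← this]; group
      conv_lhs => rw [h2]
      group
    refine ((single (hok x hx) fun b hb => h1 b hb ▸ hc.conj_mem hA _ (hB b hb)).trans
      (ih (B := {y | c⁻¹ * y * c ∈ A}) fun _ h => h) fun b hb => ?_).congr fun b hb => ?_
    · rw [h1 b hb]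
      simpa [mul_assoc] using hB b hb
    · calc h⁻¹ * b * h⁻¹⁻¹ = c⁻¹ * (c * (h⁻¹ * b * h) * c⁻¹) * c := by group
        _ = _ := by rw [← h1 b hb]; group

/-- Lists of right conjugators give a chain. -/
theorem of_list (l : List G) (h1 : ∀ b ∈ l, ok b⁻¹)
    (h2 : ∀ k ≤ l.length, ∀ a ∈ A, (l.take k).prod⁻¹ * a * (l.take k).prod ∈ T) :
    Fus T ok A l.prod⁻¹ := by
  induction l using List.reverseRecOn with
  | nil => exact .base (by simp)
  | append_singleton l b ih =>
    refine .step (ih (fun x hx => h1 x (by simp [hx])) fun k hk a ha => ?_)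
      (h1 b (by simp)) (fun a ha => ?_) fun a _ => by simp [mul_assoc]
    · simpa [List.take_append_of_le_length hk] using h2 k (by simp; omega) a ha
    · simpa using h2 _ le_rfl a ha

theorem exists_list (H : Fus T ok A g) (hA : A ⊆ T) : ∃ l : List G, (∀ b ∈ l, ok b⁻¹) ∧
    (∀ k ≤ l.length, ∀ a ∈ A, (l.take k).prod⁻¹ * a * (l.take k).prod ∈ T) ∧
    ∀ a ∈ A, l.prod⁻¹ * a * l.prod = g * a * g⁻¹ := by
  induction H with
  | base e => exact ⟨[], by simp, by simpa using fun a ha => hA ha, by simpa using fun a ha => (e a ha).symm⟩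
  | @step c x h _ hx hm e ih =>
    obtain ⟨l, h1, h2, h3⟩ := ih
    have h4 : ∀ a ∈ A, (l ++ [x⁻¹]).prod⁻¹ * a * (l ++ [x⁻¹]).prod = h * a * h⁻¹ := fun a ha => by
      rw [e a ha, ← h3 a ha]; simp [mul_assoc]
    refine ⟨l ++ [x⁻¹], fun b hb => ?_, fun k hk a ha => ?_, h4⟩
    · rcases List.mem_append.1 hb with hb | hb
      · exact h1 b hb
      · rwa [List.mem_singleton.1 hb, inv_inv]
    · rcases hk.eq_or_lt with rfl | hk
      · rw [List.take_length, h4 a ha]; exact hm a ha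
      · have : k ≤ l.length := by simp at hk; omega
        rw [List.take_append_of_le_length this]
        exact h2 k this a ha

end Cfsg.Lib.Transfer.Fus
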