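import Cfsg.Agent.Lib.Fusion.Tate
import Cfsg.Agent.Lib.Fusion.Bridge

/-!
# Weakly embedded subgroups of one order and nilpotency of a fusion system
-/

set_option autoImplicit false

namespace Cfsg.Lib.Fusion.WkEmb

open Subgroup Cfsg.Lib.Transfer
open Cfsg.FusionSystem hiding inv_mem
open scoped commutatorElement

variable {p : ℕ} {Ω : Type*} [Group Ω] {S : Subgroup Ω} {F : FusionSystem S}

/-- `Q` is weakly embedded in `F`. -/
def WE (F : FusionSystem S) (Q : Subgroup Ω) : Prop :=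
  ∃ P : Subgroup Ω, F.StronglyClosed P ∧ F.StronglyClosed (Q ⊔ P) ∧ F.StronglyClosed (Q ⊓ P)

theorem exists_between [Fact p.Prime] {A B : Subgroup Ω} [Finite B] (hB : IsPGroup p B)
    (hAB : A ≤ B) {d : ℕ} (h1 : Nat.card A ≤ p ^ d) (h2 : p ^ d ≤ Nat.card B) :
    ∃ Q : Subgroup Ω, A ≤ Q ∧ Q ≤ B ∧ Nat.card Q = p ^ d := by
  have hp : 1 < p := (Fact.out : p.Prime).one_lt
  obtain ⟨b, hb⟩ := hB.exists_card_eq
  have := finite_of_le hAB
  obtain ⟨a, ha⟩ := (hB.to_le hAB).exists_card_eq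
  rw [ha] at h1
  rw [hb] at h2
  obtain ⟨K, hK, hAK⟩ := Sylow.exists_subgroup_card_pow_prime_le (G := B) p (n := a) (m := d)
    (hb ▸ pow_dvd_pow p ((Nat.pow_le_pow_iff_right hp).1 h2)) (A.subgroupOf B)
    (by rw [← ha, Nat.card_congr (subgroupOfEquivOfLe hAB).toEquiv])
    ((Nat.pow_le_pow_iff_right hp).1 h1)
  refine ⟨K.map B.subtype, fun x hx => ⟨⟨x, hAB hx⟩, hAK hx, rfl⟩, map_subtype_le _, ?_⟩
  rw [card_subtype, hK]

/-- The chain argument: a suitable lattice of subgroups has a member of order `p ^ d`. -/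
theorem chain [Fact p.Prime] [Finite S] (hS : IsPGroup p S) {d : ℕ}
    (hW : ∀ Q ≤ S, Nat.card Q = p ^ d → WE F Q) {K : Subgroup Ω} (hK : K ≤ S)
    (hd : p ^ d ≤ Nat.card K) {C : Subgroup Ω → Prop} (h0 : C ⊥) (h1 : C K)
    (hle : ∀ X, C X → X ≤ K) (hsup : ∀ X Y, C X → C Y → C (X ⊔ Y))
    (hinf : ∀ X P, C X → F.StronglyClosed P → C (P ⊓ X)) :
    ∃ X, C X ∧ Nat.card X = p ^ d := by
  by_contra hne
  push Not at hne
  have hp : 0 < p := (Fact.out : p.Prime).pos
  have := finite_of_le hK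
  obtain ⟨A, ⟨hA, hAd⟩, hAm⟩ := exists_max_of_le (S := S)
    (C := fun X => C X ∧ Nat.card X ≤ p ^ d) (fun X h => (hle X h.1).trans hK)
    (fun X => Nat.card X) (P₀ := ⊥) ⟨h0, by rw [card_bot]; exact Nat.pow_pos hp⟩
  have hAK : A < K := lt_of_le_of_ne (hle A hA) fun e =>
    hne A hA (le_antisymm hAd (e ▸ hd))
  obtain ⟨B, ⟨hB, hAB⟩, hBm⟩ := exists_min_of_le (S := S)
    (C := fun X => C X ∧ A < X) (fun X h => (hle X h.1).trans hK)
    (fun X => Nat.card X) (P₀ := K) ⟨h1, hAK⟩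
  have hBS := (hle B hB).trans hK
  have := finite_of_le hBS
  have hBd : p ^ d ≤ Nat.card B := by
    by_contra h
    exact absurd (hAm B ⟨hB, by omega⟩) (not_le.2 (card_lt_of_lt' hAB))
  obtain ⟨Q, hAQ, hQB, hQ⟩ := exists_between (hS.to_le hBS) hAB.le hAd hBd
  have hQS := hQB.trans hBS
  have := finite_of_le hQS
  obtain ⟨P, hP, hP1, hP2⟩ := hW Q hQS hQ
  have hAQ' : A < Q := lt_of_le_of_ne hAQ fun e => hne A hA (e ▸ hQ)
  have hQB' : Q < B := lt_of_le_of_ne hQB fun e => hne B hB (e ▸ hQ)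
  -- members between `A` and `B`
  have key : ∀ X, C X → A ≤ X → X ≤ B → X = A ∨ X = B := fun X hX h2 h3 => by
    rcases h2.eq_or_lt with e | e
    · exact Or.inl e.symm
    · exact Or.inr (eq_of_le_of_card_ge h3 (hBm X ⟨hX, e⟩))
  have k1 : Q ⊓ P ≤ A := by
    have h2 : C ((Q ⊓ P) ⊓ K ⊔ A) := hsup _ _ (hinf K _ h1 hP2) hA
    have h3 : (Q ⊓ P) ⊓ K ⊔ A ≤ Q := sup_le (inf_le_left.trans inf_le_left) hAQ
    rcases key _ h2 le_sup_right (h3.trans hQB) with e | e
    · exact (le_inf le_rfl (inf_le_left.trans (hQB.trans (hle B hB)))).trans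
        (le_sup_left.trans e.le)
    · exact absurd (e ▸ h3) hQB'.not_ge
  have k2 : B ≤ Q ⊔ P := by
    rcases key _ (hinf B _ hB hP1) (le_inf (hAQ.trans le_sup_left) hAB.le) inf_le_right with e | e
    · exact absurd ((le_inf le_sup_left hQB).trans e.le) hAQ'.not_ge
    · exact e.ge.trans inf_le_left
  have hn := le_normalizer_of_stronglyClosed hP
  rcases key _ (hsup _ _ (hinf B _ hB hP) hA) le_sup_right (sup_le inf_le_right hAB.le) with e | e
  · refine hQB'.not_ge fun x hx => ?_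
    obtain ⟨u, hu, q, hq, rfl⟩ := exists_mul_of_mem_sup (hQS.trans hn) (sup_comm Q P ▸ k2 hx)
    have hu' : u ∈ B := by simpa using mul_mem hx (inv_mem (hQB hq))
    exact mul_mem (hAQ (e.le (mem_sup_left ⟨hu, hu'⟩))) hq
  · refine hAQ'.not_ge fun x hx => ?_
    have hAn : A ≤ normalizer ((P ⊓ B : Subgroup Ω) : Set Ω) := fun a ha =>
      mem_normalizer_of_conj_mem fun y hy =>
        ⟨conj_mem_of_mem_normalizer (hn (hBS (hAB.le ha))) hy.1,
          B.mul_mem (B.mul_mem (hAB.le ha) hy.2) (B.inv_mem (hAB.le ha))⟩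
    obtain ⟨u, hu, a, ha, rfl⟩ := exists_mul_of_mem_sup hAn (e.ge (hQB hx))
    have hu' : u ∈ Q := by simpa using mul_mem hx (inv_mem (hAQ ha))
    exact mul_mem (k1 ⟨hu', hu.1⟩) ha

/-- Automorphisms of order prime to `p` of large subgroups are trivial. -/
theorem aut_eq_one [Fact p.Prime] [Finite S] (hS : IsPGroup p S) {d : ℕ}
    (hW : ∀ Q ≤ S, Nat.card Q = p ^ d → WE F Q)
    (hN : ∀ H ≤ S, Nat.card H = p ^ d → NInn F p H) {K : Subgroup Ω} (hK : K ≤ S)
    (hd : p ^ d ≤ Nat.card K) {α : MulAut K} (hα : α ∈ F.autGroup K)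
    (hc : (orderOf α).Coprime p) : α = 1 := by
  have := finite_of_le hK
  obtain ⟨X, ⟨h1, h2, h3⟩, hX⟩ := chain hS hW hK hd
    (C := fun X => X ≤ K ∧ K ≤ normalizer (X : Set Ω) ∧ im (ext α) X = X)
    ⟨bot_le, fun x _ => mem_normalizer_of_conj_mem fun y hy => by simp [mem_bot.1 hy],
      (homOn_ext α).im_bot⟩
    ⟨le_rfl, le_normalizer, im_ext α⟩ (fun X h => h.1)
    (fun X Y hX hY => ⟨sup_le hX.1 hY.1,
      (le_inf hX.2.1 hY.2.1).trans (normalizer_inf_normalizer_le_normalizer_sup X Y), by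
        rw [((homOn_ext α).mono (sup_le hX.1 hY.1)).im_sup, hX.2.2, hY.2.2]⟩)
    (fun X P hX hP => by
      have := finite_of_le hX.1
      refine ⟨inf_le_right.trans hX.1, fun x hx => mem_normalizer_of_conj_mem fun y hy =>
        ⟨conj_mem_of_mem_normalizer (le_normalizer_of_stronglyClosed hP (hK hx)) hy.1,
          conj_mem_of_mem_normalizer (hX.2.1 hx) hy.2⟩,
        im_ext_eq_of_mem α (inf_le_right.trans hX.1) fun y hy =>
          ⟨(mor_ext hK hα).mem_of_stronglyClosed hP (hX.1 hy.2) hy.1, ?_⟩⟩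
      exact hX.2.2.le (mem_im_of_mem _ hy.2))
  exact hN X (h1.trans hK) hX K h1 (le_inf hK h2) α hα h3 hc

/-- Large strongly closed subgroups contain the hyperfocal subgroup. -/
theorem hyp_le_of_aut [Fact p.Prime] [Finite S] (hF : Sat F p) {P : Subgroup Ω}
    (hP : F.StronglyClosed P)
    (h : ∀ K, P ≤ K → K ≤ S → ∀ α ∈ F.autGroup K, (orderOf α).Coprime p → α = 1) :
    F.hyperfocalSubgroup p ≤ P := by
  obtain ⟨Ω', _, _, t, E, hE⟩ := exists_quotient hP
  refine hE.hyp_le_ker hP hF (hyp_eq_bot_of_nInn fun U hU _ => ?_)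
  rw [← hE.im_pre hU]
  exact hE.nInn hP (hE.le_pre U) (hE.hom.pre_le U) fun K h1 h2 α hα _ hc =>
    h K ((hE.le_pre U).trans h1) (h2.trans (normalizerIn_le _ _)) α hα hc

/-- The case where every nontrivial strongly closed subgroup contains the hyperfocal subgroup. -/
theorem hyp_eq_bot_of_min [Fact p.Prime] [Finite S] (hF : Sat F p) (hN : NInn F p S)
    (hW : ∀ Q ≤ S, Nat.card Q * p = Nat.card S → WE F Q)
    (hm : ∀ P, F.StronglyClosed P → P ≠ ⊥ → F.hyperfocalSubgroup p ≤ P) :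
    F.hyperfocalSubgroup p = ⊥ := by
  by_contra h0
  have hT := hyp_le F p
  have h1 : ¬ F.hyperfocalSubgroup p ≤ (frattini S).map S.subtype := fun h =>
    h0 (hF.hyp_eq_bot_of_le_frattini h)
  obtain ⟨M, hM, hTM⟩ : ∃ M : Subgroup S, IsCoatom M ∧
      ¬ F.hyperfocalSubgroup p ≤ M.map S.subtype := by
    by_contra h
    push Not at h
    refine h1 fun x hx => ⟨⟨x, hT hx⟩, PGroup.mem_frattini_iff.2 fun M hM => ?_, rfl⟩
    obtain ⟨y, hy, e⟩ := h M hM hx
    exact (Subtype.ext e : y = ⟨x, hT hx⟩) ▸ hy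
  have hΦ : (frattini S).map S.subtype ≤ M.map S.subtype := map_mono (frattini_le_coatom hM)
  obtain ⟨P, hP, hP1, hP2⟩ := hW (M.map S.subtype) (map_subtype_le _) (by
    rw [card_subtype, ← PGroup.index_eq_of_isCoatom hF.pg hM, card_mul_index])
  have h2 : M.map S.subtype ⊓ P = ⊥ := by
    by_contra h
    exact hTM ((hm _ hP2 h).trans inf_le_left)
  have h3 : M.map S.subtype ⊓ F.hyperfocalSubgroup p = ⊥ := by
    by_cases h : P = ⊥
    · rw [h, sup_bot_eq] at hP1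
      by_contra h'
      exact hTM (hm _ hP1 fun e => h' (by rw [e, bot_inf_eq]))
    · exact eq_bot_iff.2 ((inf_le_inf_left _ (hm P hP h)).trans h2.le)
  -- the hyperfocal subgroup is central in `S`
  have h4 : ∀ x ∈ F.hyperfocalSubgroup p, ∀ s ∈ S, s * x * s⁻¹ = x := fun x hx s hs => by
    have h5 : ⁅s, x⁆ ∈ M.map S.subtype ⊓ F.hyperfocalSubgroup p :=
      ⟨hΦ (commutator_le_frattini_map hF.pg (commutator_mem_commutator hs (hT hx))), by
        rw [commutatorElement_def]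
        exact (F.hyperfocalSubgroup p).mul_mem (conj_mem_hyp hs hx)
          ((F.hyperfocalSubgroup p).inv_mem hx)⟩
    rw [h3, mem_bot, commutatorElement_def, mul_inv_eq_one] at h5
    exact h5
  have h5 : F.hyperfocalSubgroup p ≤ F.center := fun x hx => by
    refine hF.mem_center_iff.2 ⟨hT hx, fun R f hf hxR => ?_⟩
    have hf' := hf.mono (zpowers_le.2 hxR)
    have hc : ∀ y ∈ F.hyperfocalSubgroup p, S ≤ centralizer ((zpowers y : Subgroup Ω) : Set Ω) :=
      fun y hy s hs => mem_centralizer_of_conj_eq fun z hz => h4 z (zpowers_le.2 hy hz) s hs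
    have hfx := hf.mem_of_stronglyClosed hF.stronglyClosed_hyp hxR hx
    obtain ⟨g, hg, e⟩ := hF.exists_centric_ext hf' (by
      rw [hf'.homOn.im_zpowers (mem_zpowers x)]
      exact fullyCentralized_of_central (zpowers_le.2 (hT hfx)) (hc _ hfx))
    have hg' : Mor F S g := hg.mono (le_sup_of_le_right (le_inf le_rfl (hc x hx)))
    obtain ⟨γ, hγ, eγ⟩ := hg'.exists_aut_top
    obtain ⟨β, hβ, n, hn, rfl⟩ := hF.exists_opR_mul (fullyNormalized_top F) hγ
    have hβ1 : β = 1 := mem_bot.1 (opR_le_iff.2 (fun a ha hc => mem_bot.2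
      (hN S le_rfl (le_normalizerIn le_rfl) a ha (im_ext a) hc)) hβ)
    rw [← e x (mem_zpowers x), ← eγ x (hT hx), hβ1, one_mul, ext_cjA hn.2 (hT hx), h4 x hx n hn.1]
  refine h1 (le_trans ?_ (commutator_le_frattini_map hF.pg))
  exact ((le_inf (hyp_le_focal F p) h5).trans hF.focal_inf_center.le).trans inf_le_left

/-- The case of maximal subgroups. -/
theorem hyp_eq_bot_of_max [Fact p.Prime] [Finite S] (hF : Sat F p) (hN : NInn F p S)
    (hW : ∀ Q ≤ S, Nat.card Q * p = Nat.card S → WE F Q) : F.hyperfocalSubgroup p = ⊥ := by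
  by_contra h0
  obtain ⟨A, ⟨hA, hTA⟩, hm⟩ := exists_max_of_le (S := S)
    (C := fun X => F.StronglyClosed X ∧ ¬ F.hyperfocalSubgroup p ≤ X) (fun X h => h.1.1)
    (fun X => Nat.card X) (P₀ := ⊥) ⟨stronglyClosed_bot F, fun h => h0 (eq_bot_iff.2 h)⟩
  obtain ⟨Ω', _, _, t, E, hE⟩ := exists_quotient hA
  refine hTA (hE.hyp_le_ker hA hF (hyp_eq_bot_of_min (hE.sat hA hF) ?_ (fun Q hQ hc => ?_)
    fun P hP h => ?_))
  · have := hE.nInn hA hA.1 le_rfl hN
    rwa [hE.im_eq] at this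
  · have hQ' := hE.hom.pre_le Q
    obtain ⟨P, hP, hP1, hP2⟩ := hW (hE.hom.pre Q) hQ' (by
      rw [← hE.card_pre hQ, ← hE.card_im hA.1 le_rfl, hE.im_eq, ← hc]; ring)
    refine ⟨im t P, hE.stronglyClosed_im hP, ?_, ?_⟩
    · have := hE.stronglyClosed_im hP1
      rwa [(hE.hom.mono hP1.1).im_sup, hE.im_pre hQ] at this
    · have := hE.stronglyClosed_im hP2
      convert this using 1
      refine le_antisymm (fun y hy => ?_) (le_inf ((im_mono t inf_le_left).trans
        (hE.im_pre hQ).le) (im_mono t inf_le_right))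
      obtain ⟨x, hx, rfl⟩ := (hE.hom.mono hP.1).mem_im.1 hy.2
      exact mem_im_of_mem t ⟨⟨hP.1 hx, hy.1⟩, hx⟩
  · have h1 := (hE.mph hA hF).stronglyClosed_pre hP
    rw [← hE.im_hyp hA hF, ← hE.le_pre_iff (hyp_le F p)]
    by_contra h2
    have := finite_of_le h1.1
    have h3 := eq_of_le_of_card_ge (hE.le_pre P) (hm _ ⟨h1, h2⟩)
    exact h (by rw [← hE.im_pre hP.1, ← h3, hE.im_ker])

/-- The criterion. -/
theorem hyp_eq_bot [Fact p.Prime] [Finite S] (hF : Sat F p) {d : ℕ} (hd : p ^ d < Nat.card S)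
    (hW : ∀ Q ≤ S, Nat.card Q = p ^ d → WE F Q)
    (hN : ∀ H ≤ S, Nat.card H = p ^ d → NInn F p H) : F.hyperfocalSubgroup p = ⊥ := by
  have hp : 1 < p := (Fact.out : p.Prime).one_lt
  have hA := fun K hK hd α hα hc => aut_eq_one (K := K) (α := α) hF.pg hW hN hK hd hα hc
  obtain ⟨H, hH, hc⟩ := chain hF.pg hW le_rfl hd.le (C := fun X => F.StronglyClosed X)
    (stronglyClosed_bot F) (stronglyClosed_top F) (fun X h => h.1)
    (fun X Y hX hY => hF.stronglyClosed_sup hX hY) fun X P hX hP => stronglyClosed_inf hP hX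
  have hTH : F.hyperfocalSubgroup p ≤ H := hyp_le_of_aut hF hH fun K h1 h2 α hα =>
    have := finite_of_le h2
    hA K h2 (hc ▸ card_le_of_le h1) α hα
  obtain ⟨s, hs⟩ := hF.pg.exists_card_eq
  obtain ⟨B, hHB, hB, hBc⟩ := exists_between hF.pg hH.1 (d := d + 1)
    (hc ▸ Nat.pow_le_pow_right hp.le (Nat.le_succ d))
    (hs ▸ Nat.pow_le_pow_right hp.le ((Nat.pow_lt_pow_iff_right hp).1 (hs ▸ hd)))
  have := finite_of_le hB
  obtain ⟨E, hE, hI⟩ := hF.exists_pIndex (hTH.trans hHB) hB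
  have hsub := (pIndex_iff.1 hI).1
  rw [← hyp_eq_of_pIndex hF.pg hI]
  refine hyp_eq_bot_of_max hE (fun K h1 h2 α hα _ hc' => ?_) fun Q hQ hQc => ?_
  · have hK := h2.trans ((normalizerIn_le _ _).trans hB)
    have := finite_of_le hK
    exact hA K hK ((hBc ▸ Nat.pow_le_pow_right hp.le (Nat.le_succ d)).trans (card_le_of_le h1))
      α (autGroup_mono hsub K hα) hc'
  · obtain ⟨P, hP, hP1, hP2⟩ := hW Q (hQ.trans hB) (by
      rw [hBc, pow_succ] at hQc
      exact Nat.eq_of_mul_eq_mul_right (by omega) hQc)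
    refine ⟨P ⊓ B, stronglyClosed_of_sub hsub hP, ?_, ?_⟩
    · convert stronglyClosed_of_sub hsub hP1 using 1
      refine le_antisymm (sup_le (le_inf le_sup_left hQ) (inf_le_inf_right _ le_sup_right))
        fun x hx => ?_
      obtain ⟨q, hq, u, hu, rfl⟩ := exists_mul_of_mem_sup'
        ((hQ.trans hB).trans (le_normalizer_of_stronglyClosed hP)) (sup_comm Q P ▸ hx.1)
      have hu' : u ∈ B := by simpa using B.mul_mem (B.inv_mem (hQ hq)) hx.2
      exact mul_mem_sup hq ⟨hu, hu'⟩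
    · rw [← inf_assoc]
      exact stronglyClosed_of_sub hsub hP2

end Cfsg.Lib.Fusion.WkEmb
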